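import Groth.Agent.CycB.RelDim2
import Groth.Agent.Sga3C.DimTop

/-!
# Dimension of closed subsets of schemes over a field and transcendence degrees
-/

set_option autoImplicit false
universe u

open CategoryTheory AlgebraicGeometry TopologicalSpace Topology

namespace Groth.Agent.Sga2lef.H98.Dim

open Groth.Agent.CycB.RelDim

theorem dim_mono {T : Type*} [TopologicalSpace T] {A B : Set T} (h : A ⊆ B) :
    topologicalKrullDim A ≤ topologicalKrullDim B :=
  (IsEmbedding.inclusion h).isInducing.topologicalKrullDim_le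

theorem isField_Γ (K : Type u) [Field K] : IsField Γ(Spec (CommRingCat.of K), ⊤) :=
  (Scheme.ΓSpecIso (CommRingCat.of K)).commRingCatIsoToRingEquiv.toMulEquiv.isField
    (Field.toIsField K)

theorem exists_le_of_strict {T : Type*} [TopologicalSpace T] [QuasiSober T] [T0Space T]
    (r : T → ℕ) (hr : ∀ a b, b ⤳ a → b ≠ a → r a < r b) (k : ℕ)
    (hk : (k : WithBot ℕ∞) ≤ topologicalKrullDim T) : ∃ d, k ≤ r d := by
  let := specializationOrder T
  rw [Sga3C.DimTop.topologicalKrullDim_eq_krullDim (X := T), Order.le_krullDim_iff] at hk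
  obtain ⟨l, hl⟩ := hk
  have hmono : StrictMono r := fun a b hab => hr a b hab.le hab.ne'
  have h4 := (l.map _ hmono).head_add_length_le_nat
  have h6 : (l.map _ hmono).length = k := hl
  have h7 : (l.map r hmono).last = r l.last := rfl
  rw [h6, h7] at h4
  exact ⟨l.last, by omega⟩

variable {K : Type u} [Field K] {V : Scheme.{u}} (f : V ⟶ Spec (CommRingCat.of K))
  [LocallyOfFiniteType f]

theorem exists_rtd (z : V) : ∃ n : ℕ, rtd f z = n ∧
    topologicalKrullDim (closure {z} : Set V) = n :=
  exists_dim_closure f (isAffineOpen_top _) (isField_Γ K) z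

/-- Points of a closed subset of dimension `< k` have transcendence degree `< k`. -/
theorem rtd_lt_of_dim_lt {D : Set V} (hD : IsClosed D) (k : ℕ)
    (hk : topologicalKrullDim D < (k : WithBot ℕ∞)) {z : V} (hz : z ∈ D) :
    rtd f z < (k : Cardinal.{u}) := by
  obtain ⟨n, hn, hn'⟩ := exists_rtd f z
  have h1 : (closure {z} : Set V) ⊆ D := closure_minimal (Set.singleton_subset_iff.2 hz) hD
  have h2 := (dim_mono h1).trans_lt hk
  rw [hn'] at h2
  rw [hn]
  exact_mod_cast h2

/-- A closed subset of dimension `≥ k` contains a point of transcendence degree `≥ k`. -/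
theorem exists_le_rtd {D : Set V} (hD : IsClosed D) (k : ℕ)
    (hk : (k : WithBot ℕ∞) ≤ topologicalKrullDim D) : ∃ d ∈ D, (k : Cardinal.{u}) ≤ rtd f d := by
  have hq : QuasiSober D := hD.isClosedEmbedding_subtypeVal.quasiSober
  choose r hr using fun z : V => exists_rtd f z
  obtain ⟨d, hd⟩ := exists_le_of_strict (fun d : D => r d.1) (fun a b hab hne => by
    have h2 : b.1 ⤳ a.1 := IsInducing.subtypeVal.specializes_iff.2 hab
    have h3 := rtd_lt_of_specializes f h2 (fun h => hne (Subtype.ext h)) (Subsingleton.elim _ _)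
    rw [(hr _).1, (hr _).1] at h3
    exact_mod_cast h3) k hk
  refine ⟨d.1, d.2, ?_⟩
  rw [(hr _).1]
  exact_mod_cast hd

/-- Maximal points have transcendence degree `≥ k` if all irreducible components have
dimension `≥ k`. -/
theorem le_rtd_of_max (k : ℕ) (hdim : ∀ W ∈ irreducibleComponents V,
    (k : WithBot ℕ∞) ≤ topologicalKrullDim W) {z : V} (hz : ∀ v, v ⤳ z → z ⤳ v) :
    (k : Cardinal.{u}) ≤ rtd f z := by
  obtain ⟨n, hn, hn'⟩ := exists_rtd f z
  have h1 : (closure {z} : Set V) ∈ irreducibleComponents V := by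
    refine ⟨isIrreducible_singleton.closure, fun A hA hle => ?_⟩
    obtain ⟨v, hv⟩ := QuasiSober.sober hA.closure isClosed_closure
    have hvz : v ⤳ z := hv.specializes (subset_closure (hle (subset_closure rfl)))
    have h1 : closure {v} ⊆ closure {z} :=
      closure_minimal (Set.singleton_subset_iff.2 (specializes_iff_mem_closure.1 (hz v hvz)))
        isClosed_closure
    rw [hv.def] at h1
    exact subset_closure.trans h1
  have h2 := hdim _ h1
  rw [hn'] at h2
  rw [hn]
  exact_mod_cast h2

/-- The dimension of an irreducible component is the transcendence degree of its generic point. -/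
theorem exists_generic {W : Set V} (hW : W ∈ irreducibleComponents V) :
    ∃ z : V, (∀ v, v ⤳ z → v = z) ∧ ∃ n : ℕ, rtd f z = n ∧ topologicalKrullDim W = n := by
  obtain ⟨z, hz⟩ := QuasiSober.sober hW.1 (isClosed_of_mem_irreducibleComponents W hW)
  obtain ⟨n, hn, hn'⟩ := exists_rtd f z
  rw [hz.def] at hn'
  refine ⟨z, fun v hv => ?_, n, hn, hn'⟩
  have h1 : W ⊆ closure {v} := by
    rw [← hz.def]
    exact closure_minimal (Set.singleton_subset_iff.2 (specializes_iff_mem_closure.1 hv))
      isClosed_closure
  have h2 : closure {v} ⊆ W := hW.2 isIrreducible_singleton.closure h1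
  exact (hv.antisymm (hz.specializes (h2 (subset_closure rfl)))).eq

end Groth.Agent.Sga2lef.H98.Dim
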