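import Groth.Agent.CycB.RelDim
import Groth.Agent.CalgA.DimFormula2
import Mathlib.AlgebraicGeometry.FunctionField
import Mathlib.RingTheory.Ideal.Height

/-!
# The dimension formula for dominant morphisms of integral schemes over a universally catenary base
-/

set_option autoImplicit false
universe u

open CategoryTheory AlgebraicGeometry TopologicalSpace

namespace Groth.Agent.Sga2lef.H98.DimForm

open Groth.Agent.CycB.TrdegAlg Groth.Agent.CycB.RelDim

variable {X Y : Scheme.{u}}

theorem appLE_injective [IsIntegral X] [IsIntegral Y] (f : X ⟶ Y)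
    (hdom : f (genericPoint X) = genericPoint Y) (V : Y.Opens) (U : X.Opens) (e : U ≤ f ⁻¹ᵁ V)
    (hU : (U : Set X).Nonempty) : Function.Injective (f.appLE V U e).hom := by
  have hξ : genericPoint X ∈ U := by
    obtain ⟨x, hx⟩ := hU
    exact (genericPoint_specializes x).mem_open U.2 hx
  have hfξ : f (genericPoint X) ∈ V := e hξ
  have h1 : Function.Injective (Y.presheaf.germ V (f (genericPoint X)) hfξ).hom :=
    germ_injective_of_isIntegral Y _ hfξ
  have hfield : IsField (Y.presheaf.stalk (f (genericPoint X))) := by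
    rw [hdom]
    exact Field.toIsField Y.functionField
  let _ := hfield.toField
  have h2 : Function.Injective (f.stalkMap (genericPoint X)).hom := RingHom.injective _
  have h3 : Y.presheaf.germ V (f (genericPoint X)) hfξ ≫ f.stalkMap (genericPoint X) =
      f.appLE V U e ≫ X.presheaf.germ U (genericPoint X) hξ := by
    rw [Scheme.Hom.germ_stalkMap, Scheme.Hom.appLE, Category.assoc, TopCat.Presheaf.germ_res]
  have h4 : Function.Injective
      (f.appLE V U e ≫ X.presheaf.germ U (genericPoint X) hξ).hom := by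
    rw [← h3, CommRingCat.hom_comp]
    exact h2.comp h1
  rw [CommRingCat.hom_comp] at h4
  exact Function.Injective.of_comp h4

theorem ringKrullDim_stalk (U : X.Opens) (hU : IsAffineOpen U) (x : X) (hx : x ∈ U) :
    ringKrullDim (X.presheaf.stalk x) = (hU.primeIdealOf ⟨x, hx⟩).asIdeal.height := by
  let _ := X.presheaf.algebra_section_stalk ⟨x, hx⟩
  have := hU.isLocalization_stalk ⟨x, hx⟩
  exact IsLocalization.AtPrime.ringKrullDim_eq_height (hU.primeIdealOf ⟨x, hx⟩).asIdeal
    (X.presheaf.stalk x)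

/-- The dimension formula. -/
theorem exists_dim_formula [IsIntegral X] [IsIntegral Y] (f : X ⟶ Y) [LocallyOfFiniteType f]
    (hdom : f (genericPoint X) = genericPoint Y) (x : X) (V : Y.Opens) (hV : IsAffineOpen V)
    (hxV : f x ∈ V) (hcat : CAlg.IsUniversallyCatenary Γ(Y, V)) :
    ∃ a b c d : ℕ, ringKrullDim (X.presheaf.stalk x) = a ∧ rtd f x = b ∧
      ringKrullDim (Y.presheaf.stalk (f x)) = c ∧ rtd f (genericPoint X) = d ∧
      a + b = c + d := by
  obtain ⟨U, hU, hxU, e⟩ := exists_isAffineOpen_mem_and_subset (x := x) (U := f ⁻¹ᵁ V) hxV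
  have hneU : Nonempty U := ⟨⟨x, hxU⟩⟩
  have hneV : Nonempty V := ⟨⟨f x, hxV⟩⟩
  have hft : (f.appLE V U e).hom.FiniteType := f.finiteType_appLE hV hU e
  have hinj := appLE_injective f hdom V U e ⟨x, hxU⟩
  let φ : Γ(Y, V) →+* Γ(X, U) := (f.appLE V U e).hom
  let _ := φ.toAlgebra
  have : Algebra.FiniteType Γ(Y, V) Γ(X, U) := hft
  have : FaithfulSMul Γ(Y, V) Γ(X, U) := (faithfulSMul_iff_algebraMap_injective _ _).2 hinj
  have := hcat.1
  let p := (hV.primeIdealOf ⟨f x, hxV⟩).asIdeal
  let q := (hU.primeIdealOf ⟨x, hxU⟩).asIdeal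
  have hpq : p = q.comap φ :=
    congrArg PrimeSpectrum.asIdeal (IsAffineOpen.comap_primeIdealOf_appLE V hV U hU e hxU).symm
  have : q.LiesOver p := ⟨hpq⟩
  obtain ⟨a, c, d, b, h1, h2, h3, h4, -, h6⟩ := CalgA.DimFormula2.exists_dimension_formula p q
  refine ⟨a, b, c, d, ?_, ?_, ?_, ?_, h6 hcat⟩
  · rw [ringKrullDim_stalk U hU x hxU, h1]; rfl
  · rw [rtd_eq_trd_quotientMap f hV hU e x hxU hxV p rfl hpq.le, ← h4]
    rfl
  · rw [ringKrullDim_stalk V hV (f x) hxV, h2]; rfl
  · have hξ : genericPoint X ∈ U := (genericPoint_specializes x).mem_open U.2 hxU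
    have hfξ : f (genericPoint X) ∈ V := e hξ
    let p₀ := (hV.primeIdealOf ⟨f (genericPoint X), hfξ⟩).asIdeal
    let q₀ := (hU.primeIdealOf ⟨genericPoint X, hξ⟩).asIdeal
    have hpq₀ : p₀ = q₀.comap φ :=
      congrArg PrimeSpectrum.asIdeal (IsAffineOpen.comap_primeIdealOf_appLE V hV U hU e hξ).symm
    have hq₀ : q₀ = ⊥ := by
      change (hU.primeIdealOf ⟨genericPoint X, hξ⟩).asIdeal = ⊥
      rw [hU.primeIdealOf_genericPoint, genericPoint_eq_bot_of_affine]
      rfl
    have hp₀ : p₀ = ⊥ := by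
      rw [hpq₀, hq₀]
      exact (RingHom.injective_iff_ker_eq_bot _).1 hinj
    rw [rtd_eq_trd_quotientMap f hV hU e (genericPoint X) hξ hfξ p₀ rfl hpq₀.le, ← h3]
    have : p₀.IsPrime := (hV.primeIdealOf ⟨f (genericPoint X), hfξ⟩).2
    have : q₀.IsPrime := (hU.primeIdealOf ⟨genericPoint X, hξ⟩).2
    have hi1 : Function.Injective (Ideal.Quotient.mk p₀) := by
      rw [RingHom.injective_iff_ker_eq_bot, Ideal.mk_ker, hp₀]
    have hi2 : Function.Injective (Ideal.Quotient.mk q₀) := by
      rw [RingHom.injective_iff_ker_eq_bot, Ideal.mk_ker, hq₀]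
    have e1 : (Ideal.quotientMap q₀ φ hpq₀.le).comp (Ideal.Quotient.mk p₀) =
        (Ideal.Quotient.mk q₀).comp φ := by
      ext; simp
    have e2 := trd_comp' (Ideal.Quotient.mk p₀) (Ideal.quotientMap q₀ φ hpq₀.le) hi1
      (quotientMap_injective_of_eq φ p₀ q₀ hpq₀)
    have e3 := trd_comp' φ (Ideal.Quotient.mk q₀) hinj hi2
    rw [trd_eq_zero_of_surjective _ hi1 Ideal.Quotient.mk_surjective, zero_add] at e2
    rw [trd_eq_zero_of_surjective _ hi2 Ideal.Quotient.mk_surjective, add_zero] at e3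
    exact (e2.symm.trans (congrArg trd e1)).trans e3

end Groth.Agent.Sga2lef.H98.DimForm
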