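import Groth.Agent.Flat2D.SpecFGLimit
import Groth.Agent.FlatA.ProperApprox

/-!
# Approximation of proper morphisms of finite presentation over finitely generated subrings

Explicit form of the approximation of a proper morphism of finite presentation `f : X ⟶ Spec A` by
proper morphisms `W R ⟶ Spec R`, `R` running over the finitely generated subrings of `A` containing
some `S`.
-/

set_option autoImplicit false
set_option backward.isDefEq.respectTransparency false
set_option backward.defeqAttrib.useBackward true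
universe u

open CategoryTheory CategoryTheory.Limits AlgebraicGeometry TopologicalSpace Topology

namespace Groth.Agent.Sga2lef.H98.Levels

open Groth.Agent.Flat2D.SpecFGLimit Groth.Agent.CalgA.LimFP

variable {I : Type u} [SmallCategory I] [IsCofiltered I] {D : I ⥤ Scheme.{u}} {c : Cone D}

/-- Opens of a limit, in restriction to a Noetherian subspace, come from a finite level. -/
theorem exists_opens (hc : IsLimit c) [∀ (i j : I) (f : i ⟶ j), IsAffineHom (D.map f)]
    [∀ i, CompactSpace (D.obj i)] [∀ i, QuasiSeparatedSpace (D.obj i)]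
    (T : Set c.pt) [NoetherianSpace T] (U : c.pt.Opens) :
    ∃ j₀, ∀ (j : I) (_ : j ⟶ j₀), ∃ V : (D.obj j).Opens, c.π.app j ⁻¹ᵁ V ≤ U ∧
      ∀ x ∈ T, x ∈ U → c.π.app j x ∈ V := by
  have hK : IsCompact (T ∩ U : Set c.pt) := by
    have h1 : IsCompact (Subtype.val ⁻¹' (U : Set c.pt) : Set T) := NoetherianSpace.isCompact _
    have h2 := h1.image continuous_subtype_val
    rwa [Subtype.image_preimage_coe] at h2
  obtain ⟨W, hWc, hWo, hKW, hWU⟩ :=
    PrespectralSpace.exists_isCompact_and_isOpen_between hK U.2 Set.inter_subset_right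
  obtain ⟨j₀, V, -, hV⟩ := exists_preimage_eq D c hc ⟨W, hWo⟩ hWc
  refine ⟨j₀, fun j a => ⟨D.map a ⁻¹ᵁ V, ?_, ?_⟩⟩
  · rw [← Scheme.Hom.comp_preimage, c.w, hV]
    exact hWU
  · intro x hxT hxU
    have h3 : x ∈ c.π.app j₀ ⁻¹ᵁ V := by
      rw [hV]
      exact hKW ⟨hxT, hxU⟩
    rw [← c.w a] at h3
    exact h3

theorem exists_levels (hc : IsLimit c) [∀ (i j : I) (f : i ⟶ j), IsAffineHom (D.map f)]
    [∀ i, CompactSpace (D.obj i)] [∀ i, QuasiSeparatedSpace (D.obj i)]
    {i : I} {X X₀ : Scheme.{u}} {f : X ⟶ c.pt} {f₀ : X₀ ⟶ D.obj i} {p₀ : X ⟶ X₀}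
    (hpb : IsPullback p₀ f f₀ (c.π.app i)) [IsProper f₀] :
    ∃ (W : Over i → Scheme.{u}) (g : ∀ j, W j ⟶ D.obj j.left) (p : ∀ j, X ⟶ W j)
      (q : ∀ {j j' : Over i} (_ : j ⟶ j'), W j ⟶ W j'),
      (∀ j, IsProper (g j)) ∧
      (∀ j, IsPullback (p j) f (g j) (c.π.app j.left)) ∧
      (∀ (j j' : Over i) (a : j ⟶ j'), p j ≫ q a = p j') ∧
      (∀ (j j' : Over i) (a : j ⟶ j'), IsPullback (q a) (g j) (g j') (D.map a.left)) ∧
      (∀ (T : Set X) [NoetherianSpace T] (U : X.Opens), ∃ j₀ : Over i, ∀ (j : Over i)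
        (_ : j ⟶ j₀), ∃ V : (W j).Opens, p j ⁻¹ᵁ V ≤ U ∧ ∀ x ∈ T, x ∈ U → p j x ∈ V) := by
  have hEaff : ∀ (a b : Over i) (t : a ⟶ b), IsAffineHom ((bcDiagram D f₀).map t) :=
    fun a b t => isAffineHom_bcDiagram_map t
  have hEc : ∀ a, CompactSpace ((bcDiagram D f₀).obj a) := fun a => compactSpace_bcDiagram_obj a
  have hEqs : ∀ a, QuasiSeparatedSpace ((bcDiagram D f₀).obj a) :=
    fun a => quasiSeparatedSpace_bcDiagram_obj a
  refine ⟨fun j => pullback f₀ (D.map j.hom), fun j => pullback.snd _ _,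
    fun j => (bcCone hpb).π.app j, fun {j j'} a => (bcDiagram D f₀).map a, ?_, ?_, ?_, ?_, ?_⟩
  · intro j
    infer_instance
  · intro j
    refine IsPullback.of_right (h₁₂ := pullback.fst f₀ (D.map j.hom)) (h₂₂ := D.map j.hom)
      (v₁₃ := f₀) ?_ (by simp) (IsPullback.of_hasPullback f₀ (D.map j.hom))
    dsimp
    rw [pullback.lift_fst, c.w]
    exact hpb
  · intro j j' a
    exact (bcCone hpb).w a
  · intro j j' a
    exact isPullback_bcDiagram_map D f₀ a
  · intro T hT U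
    exact exists_opens (isLimitBcCone hc hpb) T U

/-- The ring map given by an inclusion of finitely generated subrings. -/
def incl {A : Type u} [CommRing A] {R R' : FGSub A} (h : R ≤ R') :
    CommRingCat.of R.1 ⟶ CommRingCat.of R'.1 :=
  CommRingCat.ofHom (Subalgebra.inclusion h).toRingHom

/-- The ring map given by the inclusion of a finitely generated subring. -/
def toA {A : Type u} [CommRing A] (R : FGSub A) : CommRingCat.of R.1 ⟶ CommRingCat.of A :=
  CommRingCat.ofHom R.1.val.toRingHom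

theorem exists_levels_fg {A : Type u} [CommRing A] {X : Scheme.{u}}
    (f : X ⟶ Spec (CommRingCat.of A)) [hf : IsProper f] [hf' : LocallyOfFinitePresentation f] :
    ∃ (S : FGSub A) (W : ∀ R : FGSub A, S ≤ R → Scheme.{u})
      (g : ∀ (R : FGSub A) (hR : S ≤ R), W R hR ⟶ Spec (CommRingCat.of R.1))
      (p : ∀ (R : FGSub A) (hR : S ≤ R), X ⟶ W R hR)
      (q : ∀ (R R' : FGSub A) (hR : S ≤ R) (h : R ≤ R'), W R' (hR.trans h) ⟶ W R hR),
      (∀ R hR, IsProper (g R hR)) ∧
      (∀ R hR, IsPullback (p R hR) f (g R hR) (Spec.map (toA R))) ∧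
      (∀ R R' hR h, p R' (hR.trans h) ≫ q R R' hR h = p R hR) ∧
      (∀ R R' hR h, IsPullback (q R R' hR h) (g R' (hR.trans h)) (g R hR)
        (Spec.map (incl h))) ∧
      (∀ (T : Set X) [NoetherianSpace T] (U : X.Opens), ∃ (R₀ : FGSub A) (hR₀ : S ≤ R₀),
        ∀ (R : FGSub A) (h : R₀ ≤ R), ∃ V : (W R (hR₀.trans h)).Opens,
          p R (hR₀.trans h) ⁻¹ᵁ V ≤ U ∧ ∀ x ∈ T, x ∈ U → p R (hR₀.trans h) x ∈ V) := by
  obtain ⟨i, X₀, f₀, p₀, hpb, hprop, -⟩ :=
    @FlatA.ProperApprox.exists_proper_model _ _ _ (specDiagram A) (specCone A)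
      (isLimitSpecCone A) _ _ _ X f hf hf'
  obtain ⟨W, g, p, q, h1, h2, h3, h4, h5⟩ := exists_levels (isLimitSpecCone A) hpb
  refine ⟨i.unop, fun R hR => W (Over.mk (Y := Opposite.op R) (homOfLE hR).op),
    fun R hR => g (Over.mk (Y := Opposite.op R) (homOfLE hR).op),
    fun R hR => p (Over.mk (Y := Opposite.op R) (homOfLE hR).op),
    fun R R' hR h => q (Over.homMk (U := Over.mk (Y := Opposite.op R') (homOfLE (hR.trans h)).op)
      (V := Over.mk (Y := Opposite.op R) (homOfLE hR).op) (homOfLE h).op), ?_, ?_, ?_, ?_, ?_⟩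
  · exact fun R hR => h1 _
  · exact fun R hR => h2 _
  · exact fun R R' hR h => h3 _ _ _
  · exact fun R R' hR h => h4 _ _ _
  · intro T _ U
    obtain ⟨j₀, hj₀⟩ := h5 T U
    refine ⟨j₀.left.unop, leOfHom j₀.hom.unop, fun R h => ?_⟩
    exact hj₀ (Over.mk (Y := Opposite.op R) (homOfLE _).op) (Over.homMk (homOfLE h).op)

end Groth.Agent.Sga2lef.H98.Levels
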