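import Groth.Agent.CycB.RelDim2
import Groth.Agent.CycA.TensorTrdeg
import Mathlib.AlgebraicGeometry.Morphisms.Flat
import Mathlib.AlgebraicGeometry.PullbackCarrier
import Mathlib.RingTheory.Ideal.MinimalPrime.Basic

/-!
# Residue fields and transcendence degrees at points of fibre products

* `gen_residue`: the residue field at a point of `X ×[S] Y` is generated by those of its projections;
* `rtd_snd_le`: `trdeg κ(z)/κ(q z) ≤ trdeg κ(p z)/κ(f (p z))`;
* `exists_lift`: points `x`, `y` with the same image lift to a point `z` with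
  `trdeg κ(x)/κ(f x) ≤ trdeg κ(z)/κ(y)`.
-/

set_option autoImplicit false
universe u

open CategoryTheory Limits AlgebraicGeometry TensorProduct

namespace Groth.Agent.Sga2lef.H98.Rtd

open Groth.Agent.CycB.TrdegAlg Groth.Agent.CycB.RelDim Groth.Agent.CycA

variable {X Y S P : Scheme.{u}} {f : X ⟶ S} {g : Y ⟶ S} {p : P ⟶ X} {q : P ⟶ Y}

/-- A morphism of spectra of fields is an epimorphism of schemes. -/
theorem epi_Spec_map {K L : Type u} [Field K] [Field L] (φ : K →+* L) :
    Epi (Spec.map (CommRingCat.ofHom φ)) := by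
  let _ := φ.toAlgebra
  have h1 : Flat (Spec.map (CommRingCat.ofHom φ)) := by
    rw [Flat.SpecMap_iff]
    change (algebraMap K L).Flat
    exact RingHom.flat_algebraMap_iff.2 inferInstance
  have h2 : Surjective (Spec.map (CommRingCat.ofHom φ)) :=
    ⟨fun x => ⟨(⊥ : PrimeSpectrum L), Subsingleton.elim (α := PrimeSpectrum K) _ _⟩⟩
  exact Flat.epi_of_flat_of_surjective _

/-- Morphisms from the spectrum of a field factor through the residue field of the image. -/
theorem exists_eq_of_field {K : Type u} [Field K] (l : Spec (CommRingCat.of K) ⟶ P) :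
    ∃ (z : P) (φ : P.residueField z ⟶ CommRingCat.of K),
      l = Spec.map φ ≫ P.fromSpecResidueField z :=
  ⟨_, _, (Scheme.descResidueField_stalkClosedPointTo_fromSpecResidueField K P l).symm⟩

/-- The residue field at a point of a fibre product is generated by the residue fields of the
projections. -/
theorem gen_residue (H : IsPullback p q f g) (z : P) (F : Subfield (P.residueField z))
    (h1 : ∀ a, (p.residueFieldMap z).hom a ∈ F) (h2 : ∀ b, (q.residueFieldMap z).hom b ∈ F) :
    F = ⊤ := by
  let ι : CommRingCat.of F ⟶ P.residueField z := CommRingCat.ofHom F.subtype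
  let α : X.residueField (p z) ⟶ CommRingCat.of F :=
    CommRingCat.ofHom ((p.residueFieldMap z).hom.codRestrict F.toSubring h1)
  let β : Y.residueField (q z) ⟶ CommRingCat.of F :=
    CommRingCat.ofHom ((q.residueFieldMap z).hom.codRestrict F.toSubring h2)
  have hα : α ≫ ι = p.residueFieldMap z := rfl
  have hβ : β ≫ ι = q.residueFieldMap z := rfl
  let π : Spec (P.residueField z) ⟶ Spec (CommRingCat.of F) := Spec.map ι
  have hepi : Epi π := epi_Spec_map F.subtype
  let u : Spec (CommRingCat.of F) ⟶ X := Spec.map α ≫ X.fromSpecResidueField (p z)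
  let v : Spec (CommRingCat.of F) ⟶ Y := Spec.map β ≫ Y.fromSpecResidueField (q z)
  have hu : π ≫ u = P.fromSpecResidueField z ≫ p := by
    rw [← Scheme.Hom.SpecMap_residueFieldMap_fromSpecResidueField, ← hα, Spec.map_comp,
      Category.assoc]
  have hv : π ≫ v = P.fromSpecResidueField z ≫ q := by
    rw [← Scheme.Hom.SpecMap_residueFieldMap_fromSpecResidueField, ← hβ, Spec.map_comp,
      Category.assoc]
  have huv : u ≫ f = v ≫ g := by
    rw [← cancel_epi π, ← Category.assoc, hu, ← Category.assoc, hv, Category.assoc,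
      Category.assoc, H.w]
  let l : Spec (CommRingCat.of F) ⟶ P := H.lift u v huv
  have hl : π ≫ l = P.fromSpecResidueField z := by
    apply H.hom_ext
    · rw [Category.assoc, H.lift_fst, hu]
    · rw [Category.assoc, H.lift_snd, hv]
  obtain ⟨z', φ, hφ⟩ := exists_eq_of_field l
  have hz : z' = z := by
    have h3 : (π ≫ l) (⊥ : PrimeSpectrum (P.residueField z)) = z := by
      rw [hl]; exact P.fromSpecResidueField_apply z _
    rw [hφ, Scheme.Hom.comp_apply, Scheme.Hom.comp_apply, P.fromSpecResidueField_apply] at h3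
    exact h3
  subst hz
  have h4 : π ≫ Spec.map φ = 𝟙 _ := by
    rw [← cancel_mono (P.fromSpecResidueField z'), Category.assoc, ← hφ, hl, Category.id_comp]
  have h5 : φ ≫ ι = 𝟙 _ := by
    apply Spec.map_injective
    rw [Spec.map_comp, Spec.map_id]
    exact h4
  rw [eq_top_iff]
  intro w _
  have h6 : w = (φ ≫ ι).hom w := by rw [h5]; rfl
  rw [h6]
  exact (φ.hom w).2

/-- The transcendence degree over the second factor is at most that of the first projection over
the base. -/
theorem rtd_snd_le (H : IsPullback p q f g) (z : P) : rtd q z ≤ rtd f (p z) := by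
  have e : g (q z) = f (p z) := by
    rw [← Scheme.Hom.comp_apply, ← Scheme.Hom.comp_apply, H.w]
  have h1 : rtd f (p z) = trd ((S.residueFieldCongr e).hom ≫ f.residueFieldMap (p z)).hom := by
    rw [CommRingCat.hom_comp, trd_comp_surjective']
    · rfl
    · exact (ConcreteCategory.bijective_of_isIso (S.residueFieldCongr e).hom).2
  rw [h1]
  refine TensorTrdeg.trd_le (g.residueFieldMap (q z)).hom
    ((S.residueFieldCongr e).hom ≫ f.residueFieldMap (p z)).hom (q.residueFieldMap z).hom
    (p.residueFieldMap z).hom ?_ ?_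
  · rw [← CommRingCat.hom_comp, ← CommRingCat.hom_comp, Category.assoc,
      ← Scheme.residueFieldMap_comp, ← Scheme.residueFieldMap_comp,
      Scheme.Hom.residueFieldMap_congr H.w.symm]
    rfl
  · intro R hR1 hR2 w
    have hF := gen_residue H z (Subfield.closure (R : Set (P.residueField z)))
      (fun a => Subfield.subset_closure (hR2 a)) (fun b => Subfield.subset_closure (hR1 b))
    have hw : w ∈ Subfield.closure (R : Set (P.residueField z)) := hF ▸ Subfield.mem_top w
    rw [Subfield.mem_closure_iff, Subring.closure_eq] at hw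
    obtain ⟨a, ha, b, hb, hab⟩ := hw
    by_cases hb0 : b = 0
    · refine ⟨0, R.zero_mem, 1, R.one_mem, one_ne_zero, ?_⟩
      rw [← hab, hb0, div_zero, zero_mul]
    · exact ⟨a, ha, b, hb, hb0, by rw [← hab, div_mul_cancel₀ _ hb0]⟩

section Field

variable (k K₁ K₂ : Type u) [Field k] [Field K₁] [Field K₂] [Algebra k K₁] [Algebra k K₂]

/-- Two extensions of a field have a common extension in which a transcendence basis of the first
one stays algebraically independent over the second one. -/
theorem exists_common_ext :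
    ∃ (ι : Type u) (t : ι → K₁) (L : Type u) (_ : Field L) (a : K₁ →+* L) (b : K₂ →+* L),
      Cardinal.mk ι = Algebra.trdeg k K₁ ∧
      a.comp (algebraMap k K₁) = b.comp (algebraMap k K₂) ∧
      letI := b.toAlgebra
      AlgebraicIndependent K₂ (fun i => a (t i)) := by
  obtain ⟨s, hs⟩ := exists_isTranscendenceBasis k K₁
  let t : s → K₁ := Subtype.val
  have ht : AlgebraicIndependent k t := hs.1
  let e := (MvPolynomial.algebraTensorAlgEquiv (R := k) (σ := s) (A := K₂)).symm
  let Φ : MvPolynomial s K₂ →ₐ[K₂] K₂ ⊗[k] K₁ :=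
    (Algebra.TensorProduct.map (AlgHom.id K₂ K₂)
      (MvPolynomial.aeval t : MvPolynomial s k →ₐ[k] K₁)).comp e.toAlgHom
  have hΦ : Function.Injective Φ := by
    have h1 : Function.Injective (Algebra.TensorProduct.map (AlgHom.id K₂ K₂)
        (MvPolynomial.aeval t : MvPolynomial s k →ₐ[k] K₁)) := by
      have := Module.Flat.lTensor_preserves_injective_linearMap (M := K₂)
        (MvPolynomial.aeval t : MvPolynomial s k →ₐ[k] K₁).toLinearMap ht
      exact this
    exact h1.comp e.injective
  obtain ⟨P, hP, hP'⟩ := Ideal.exists_comap_eq_of_mem_minimalPrimes_of_injective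
    (f := Φ.toRingHom) hΦ ⊥ (by
      rw [IsDomain.minimalPrimes_eq_singleton_bot]; rfl)
  let L := P.ResidueField
  let π : K₂ ⊗[k] K₁ →+* L := algebraMap _ _
  have hπ : ∀ x, π x = 0 ↔ x ∈ P := fun x => Ideal.algebraMap_residueField_eq_zero
  let a : K₁ →+* L := π.comp (Algebra.TensorProduct.includeRight : K₁ →ₐ[k] K₂ ⊗[k] K₁).toRingHom
  let b : K₂ →+* L := π.comp (Algebra.TensorProduct.includeLeft : K₂ →ₐ[k] K₂ ⊗[k] K₁).toRingHom
  refine ⟨s, t, L, inferInstance, a, b, hs.cardinalMk_eq_trdeg, ?_, ?_⟩
  · ext x
    change π ((Algebra.TensorProduct.includeRight : K₁ →ₐ[k] K₂ ⊗[k] K₁) (algebraMap k K₁ x)) =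
      π ((Algebra.TensorProduct.includeLeft : K₂ →ₐ[k] K₂ ⊗[k] K₁) (algebraMap k K₂ x))
    rw [AlgHom.commutes, AlgHom.commutes]
  · let _ := b.toAlgebra
    rw [AlgebraicIndependent]
    have key : (MvPolynomial.aeval (fun i => a (t i)) : MvPolynomial s K₂ →ₐ[K₂] L).toRingHom =
        π.comp Φ.toRingHom := by
      apply MvPolynomial.ringHom_ext
      · intro r
        have h5 : Φ (MvPolynomial.C r) = r ⊗ₜ 1 := by
          have : (MvPolynomial.C r : MvPolynomial s K₂) = algebraMap K₂ _ r := rfl
          rw [this, AlgHom.commutes]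
          rfl
        change MvPolynomial.aeval _ (MvPolynomial.C r) = π (Φ (MvPolynomial.C r))
        rw [h5, MvPolynomial.aeval_C]
        rfl
      · intro i
        have h5 : Φ (MvPolynomial.X i) = 1 ⊗ₜ t i := by
          simp [Φ, e]
        change MvPolynomial.aeval _ (MvPolynomial.X i) = π (Φ (MvPolynomial.X i))
        rw [h5, MvPolynomial.aeval_X]
        rfl
    have h2 : Function.Injective (π.comp Φ.toRingHom) := by
      rw [injective_iff_map_eq_zero]
      intro x hx
      have h3 : x ∈ P.comap Φ.toRingHom := (hπ _).1 hx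
      rw [hP'] at h3
      exact h3
    rw [← key] at h2
    exact h2

end Field

/-- Points with the same image lift to the fibre product, without loss of transcendence degree. -/
theorem exists_lift (H : IsPullback p q f g) (x : X) (y : Y) (h : f x = g y) :
    ∃ z : P, p z = x ∧ q z = y ∧ rtd f x ≤ rtd q z := by
  let φ₁ : S.residueField (f x) →+* X.residueField x := (f.residueFieldMap x).hom
  let φ₂ : S.residueField (f x) →+* Y.residueField y :=
    ((S.residueFieldCongr h).hom ≫ g.residueFieldMap y).hom
  let _ := φ₁.toAlgebra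
  let _ := φ₂.toAlgebra
  obtain ⟨ι, t, L, _, a, b, hcard, hcomm, hind⟩ :=
    exists_common_ext (S.residueField (f x)) (X.residueField x) (Y.residueField y)
  let u : Spec (CommRingCat.of L) ⟶ X :=
    Spec.map (CommRingCat.ofHom a) ≫ X.fromSpecResidueField x
  let v : Spec (CommRingCat.of L) ⟶ Y :=
    Spec.map (CommRingCat.ofHom b) ≫ Y.fromSpecResidueField y
  have huv : u ≫ f = v ≫ g := by
    have h1 : CommRingCat.ofHom φ₁ ≫ CommRingCat.ofHom a =
        CommRingCat.ofHom φ₂ ≫ CommRingCat.ofHom b := by
      rw [← CommRingCat.ofHom_comp, ← CommRingCat.ofHom_comp]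
      exact congrArg _ hcomm
    have h2 : u ≫ f = Spec.map (CommRingCat.ofHom φ₁ ≫ CommRingCat.ofHom a) ≫
        S.fromSpecResidueField (f x) := by
      rw [Spec.map_comp, Category.assoc, Category.assoc,
        ← Scheme.Hom.SpecMap_residueFieldMap_fromSpecResidueField]
      rfl
    have h3 : v ≫ g = Spec.map (CommRingCat.ofHom φ₂ ≫ CommRingCat.ofHom b) ≫
        S.fromSpecResidueField (f x) := by
      have h4 : CommRingCat.ofHom φ₂ = (S.residueFieldCongr h).hom ≫ g.residueFieldMap y := rfl
      rw [h4, Spec.map_comp, Spec.map_comp, Category.assoc, Category.assoc, Category.assoc,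
        ← Scheme.Hom.SpecMap_residueFieldMap_fromSpecResidueField,
        Scheme.residueFieldCongr_fromSpecResidueField]
    rw [h2, h3, h1]
  obtain ⟨z, φ, hφ⟩ := exists_eq_of_field (H.lift u v huv)
  have hu : (Spec.map φ ≫ P.fromSpecResidueField z) ≫ p = u := by rw [← hφ, H.lift_fst]
  have hv : (Spec.map φ ≫ P.fromSpecResidueField z) ≫ q = v := by rw [← hφ, H.lift_snd]
  have hx : p z = x := by
    have h5 := congr(($hu) (⊥ : PrimeSpectrum L))
    rw [Scheme.Hom.comp_apply, Scheme.Hom.comp_apply, P.fromSpecResidueField_apply] at h5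
    rw [h5, Scheme.Hom.comp_apply, X.fromSpecResidueField_apply]
  have hy : q z = y := by
    have h5 := congr(($hv) (⊥ : PrimeSpectrum L))
    rw [Scheme.Hom.comp_apply, Scheme.Hom.comp_apply, P.fromSpecResidueField_apply] at h5
    rw [h5, Scheme.Hom.comp_apply, Y.fromSpecResidueField_apply]
  subst hx
  subst hy
  refine ⟨z, rfl, rfl, ?_⟩
  have ha : p.residueFieldMap z ≫ φ = CommRingCat.ofHom a := by
    apply Spec.map_injective
    rw [← cancel_mono (X.fromSpecResidueField (p z)), Spec.map_comp, Category.assoc,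
      Scheme.Hom.SpecMap_residueFieldMap_fromSpecResidueField, ← Category.assoc, hu]
  have hb : q.residueFieldMap z ≫ φ = CommRingCat.ofHom b := by
    apply Spec.map_injective
    rw [← cancel_mono (Y.fromSpecResidueField (q z)), Spec.map_comp, Category.assoc,
      Scheme.Hom.SpecMap_residueFieldMap_fromSpecResidueField, ← Category.assoc, hv]
  have h6 : rtd f (p z) = Cardinal.mk ι := by
    rw [hcard]; rfl
  rw [h6]
  let algL : Algebra (Y.residueField (q z)) L := b.toAlgebra
  let algz : Algebra (Y.residueField (q z)) (P.residueField z) := (q.residueFieldMap z).hom.toAlgebra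
  let φ' : P.residueField z →ₐ[Y.residueField (q z)] L :=
    { φ.hom with
      commutes' := fun r => congr(($hb).hom r) }
  have h7 : AlgebraicIndependent (Y.residueField (q z))
      (fun i => (p.residueFieldMap z).hom (t i)) := by
    refine (φ'.algebraicIndependent_iff (φ.hom.injective)).1 ?_
    have h8 : (φ' ∘ fun i => (p.residueFieldMap z).hom (t i)) = fun i => a (t i) := by
      funext i
      exact congr(($ha).hom (t i))
    rw [h8]
    exact hind
  exact h7.cardinalMk_le_trdeg

end Groth.Agent.Sga2lef.H98.Rtd
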