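import Mathlib.Topology.NoetherianSpace
import Mathlib.Topology.Sober
import Mathlib.Topology.Connected.Basic

/-!
# Connectedness of the complement of a closed subset from local connectedness

In a connected Noetherian quasi-sober space `T`, if `Z` is closed and for every `z ∈ Z` the space of
proper generizations of `z` is connected, then the complement of `Z` is connected.
-/

set_option autoImplicit false

open TopologicalSpace Topology

namespace Groth.Agent.Sga2lef.H98.TopConn

variable {T : Type*} [TopologicalSpace T]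

/-- Every point has a maximal generization. -/
theorem exists_max [QuasiSober T] (w : T) : ∃ z : T, z ⤳ w ∧ ∀ t, t ⤳ z → z ⤳ t := by
  obtain ⟨z, hz⟩ := QuasiSober.sober (isIrreducible_irreducibleComponent (x := w))
    isClosed_irreducibleComponent
  refine ⟨z, hz.specializes mem_irreducibleComponent, fun t ht => ?_⟩
  have h1 : irreducibleComponent w ⊆ closure {t} := by
    rw [← hz.def]
    exact closure_minimal (Set.singleton_subset_iff.2 (specializes_iff_mem_closure.1 ht))
      isClosed_closure
  have h2 : closure {t} ⊆ irreducibleComponent w :=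
    (irreducibleComponent_mem_irreducibleComponents w).2 isIrreducible_singleton.closure h1
  exact hz.specializes (h2 (subset_closure rfl))

/-- Every point of a closed subset `F` has a generization in `F` which is maximal in `F`. -/
theorem exists_max_mem [QuasiSober T] {F : Set T} (hF : IsClosed F) (w : T) (hw : w ∈ F) :
    ∃ z ∈ F, z ⤳ w ∧ ∀ t ∈ F, t ⤳ z → z ⤳ t := by
  have : QuasiSober F := hF.isClosedEmbedding_subtypeVal.quasiSober
  obtain ⟨z, hz, hmax⟩ := exists_max (⟨w, hw⟩ : F)
  refine ⟨z.1, z.2, IsInducing.subtypeVal.specializes_iff.2 hz, fun t ht htz => ?_⟩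
  exact IsInducing.subtypeVal.specializes_iff.2
    (hmax ⟨t, ht⟩ (IsInducing.subtypeVal.specializes_iff.1 htz))

/-- The union of the closures of the maximal points lying in `S`. -/
def compUnion (S : Set T) : Set T := {t | ∃ u ∈ S, (∀ v, v ⤳ u → u ⤳ v) ∧ u ⤳ t}

theorem compUnion_eq [QuasiSober T] (S : Set T) :
    compUnion S = ⋃ C ∈ {C ∈ irreducibleComponents T | ∃ u ∈ S, IsGenericPoint u C}, C := by
  ext t
  simp only [compUnion, Set.mem_iUnion]
  constructor
  · rintro ⟨u, hu, hmax, hut⟩
    refine ⟨closure {u}, ⟨⟨isIrreducible_singleton.closure, fun A hA hle => ?_⟩, u, hu, rfl⟩,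
      specializes_iff_mem_closure.1 hut⟩
    obtain ⟨v, hv⟩ := QuasiSober.sober hA.closure isClosed_closure
    have hvu : v ⤳ u := hv.specializes (subset_closure (hle (subset_closure rfl)))
    have h1 : closure {v} ⊆ closure {u} :=
      closure_minimal (Set.singleton_subset_iff.2 (specializes_iff_mem_closure.1 (hmax v hvu)))
        isClosed_closure
    rw [hv.def] at h1
    exact subset_closure.trans h1
  · rintro ⟨C, ⟨hC, u, hu, hg⟩, htC⟩
    refine ⟨u, hu, fun v hv => ?_, hg.specializes htC⟩
    have h1 : C ⊆ closure {v} := by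
      rw [← hg.def]
      exact closure_minimal (Set.singleton_subset_iff.2 (specializes_iff_mem_closure.1 hv))
        isClosed_closure
    have h2 : closure {v} ⊆ C := hC.2 isIrreducible_singleton.closure h1
    exact hg.specializes (h2 (subset_closure rfl))

theorem isClosed_compUnion [QuasiSober T] [NoetherianSpace T] (S : Set T) :
    IsClosed (compUnion S) := by
  rw [compUnion_eq]
  refine Set.Finite.isClosed_biUnion ?_ (fun C hC => isClosed_of_mem_irreducibleComponents C hC.1)
  exact (NoetherianSpace.finite_irreducibleComponents (α := T)).subset (fun C hC => hC.1)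

theorem compUnion_subset {S : Set T} (hS : IsClosed S) : compUnion S ⊆ S := by
  rintro t ⟨u, hu, -, hut⟩
  exact hut.mem_closed hS hu

/-- Connectedness of the complement of `Z` from the connectedness of `T` and of the spaces of
proper generizations of the points of `Z`. -/
theorem isConnected_compl_of_local [NoetherianSpace T] [QuasiSober T] [ConnectedSpace T]
    (Z : Set T) (hZ : IsClosed Z) (h : ∀ z ∈ Z, IsConnected {t : T | t ⤳ z ∧ ¬ z ⤳ t}) :
    IsConnected Zᶜ := by
  have hmaxZ : ∀ u : T, (∀ v, v ⤳ u → u ⤳ v) → u ∉ Z := by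
    intro u hu huZ
    obtain ⟨t, ht1, ht2⟩ := (h u huZ).nonempty
    exact ht2 (hu t ht1)
  refine ⟨?_, ?_⟩
  · obtain ⟨t⟩ := (inferInstance : Nonempty T)
    obtain ⟨u, -, hu⟩ := exists_max t
    exact ⟨u, hmaxZ u hu⟩
  · rw [isPreconnected_closed_iff]
    intro t t' ht ht' hcov hne hne'
    by_contra hemp
    rw [Set.not_nonempty_iff_eq_empty] at hemp
    have hnot : ∀ x, x ∉ Z → x ∈ t → x ∈ t' → False := by
      intro x hx h1 h2
      have : x ∈ Zᶜ ∩ (t ∩ t') := ⟨hx, h1, h2⟩
      rw [hemp] at this
      exact this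
    have hcl1 := isClosed_compUnion (T := T) t
    have hcl2 := isClosed_compUnion (T := T) t'
    have hne1 : (compUnion t).Nonempty := by
      obtain ⟨v, hvZ, hvt⟩ := hne
      obtain ⟨u, huv, hu⟩ := exists_max v
      rcases hcov (hmaxZ u hu) with h1 | h1
      · exact ⟨u, u, h1, hu, specializes_rfl⟩
      · exact (hnot v hvZ hvt (huv.mem_closed ht' h1)).elim
    have hne2 : (compUnion t').Nonempty := by
      obtain ⟨v, hvZ, hvt⟩ := hne'
      obtain ⟨u, huv, hu⟩ := exists_max v
      rcases hcov (hmaxZ u hu) with h1 | h1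
      · exact (hnot v hvZ (huv.mem_closed ht h1) hvt).elim
      · exact ⟨u, u, h1, hu, specializes_rfl⟩
    have huniv : Set.univ ⊆ compUnion t ∪ compUnion t' := by
      intro v _
      obtain ⟨u, huv, hu⟩ := exists_max v
      rcases hcov (hmaxZ u hu) with h1 | h1
      · exact Or.inl ⟨u, h1, hu, huv⟩
      · exact Or.inr ⟨u, h1, hu, huv⟩
    obtain ⟨w, -, hw⟩ := (isPreconnected_closed_iff.1 (isPreconnected_univ (α := T))) _ _ hcl1 hcl2
      huniv ⟨_, trivial, hne1.some_mem⟩ ⟨_, trivial, hne2.some_mem⟩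
    obtain ⟨z, hz, -, hzmax⟩ := exists_max_mem (hcl1.inter hcl2) w hw
    have hzZ : z ∈ Z := by
      by_contra hzZ
      exact hnot z hzZ (compUnion_subset ht hz.1) (compUnion_subset ht' hz.2)
    have hG := (h z hzZ).isPreconnected
    rw [isPreconnected_closed_iff] at hG
    obtain ⟨u1, hu1, hu1m, hu1z⟩ := hz.1
    obtain ⟨u2, hu2, hu2m, hu2z⟩ := hz.2
    have hnz : ∀ u : T, (∀ v, v ⤳ u → u ⤳ v) → u ⤳ z → ¬ z ⤳ u := by
      intro u hu huz hzu
      exact hmaxZ u hu (hzu.mem_closed hZ hzZ)
    obtain ⟨x, ⟨hxz, hzx⟩, hx⟩ := hG _ _ hcl1 hcl2 (fun v _ => huniv trivial)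
      ⟨u1, ⟨hu1z, hnz u1 hu1m hu1z⟩, u1, hu1, hu1m, specializes_rfl⟩
      ⟨u2, ⟨hu2z, hnz u2 hu2m hu2z⟩, u2, hu2, hu2m, specializes_rfl⟩
    exact hzx (hzmax x hx hxz)

end Groth.Agent.Sga2lef.H98.TopConn
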